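import Mathlib
import Cfsg.Agent.CIT.CAPSL
import Cfsg.Agent.Cl.PSL2Max
import Cfsg.Agent.Ch.TI

/-!
# Groups whose non-abelian subgroups are self-normalizing
-/

set_option autoImplicit false

namespace Cfsg.Agent.CIT.CA

open Cfsg.Agent.Inv Cfsg.Agent.Inv.SE MulAction Subgroup Cfsg.Agent.Cl.L2 Cfsg.Agent.GT.Tr
open scoped MatrixGroups IsMulCommutative

/-- Every non-abelian subgroup is self-normalizing. -/
def SelfN (G : Type*) [Group G] : Prop :=
  ∀ H : Subgroup G, ¬ IsMulCommutative H → normalizer (H : Set G) = H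

variable {G : Type*} [Group G]

theorem isMulCommutative_iff' {H : Subgroup G} :
    IsMulCommutative H ↔ ∀ a ∈ H, ∀ b ∈ H, a * b = b * a :=
  ⟨fun h a ha b hb => congrArg Subtype.val (h.is_comm.comm ⟨a, ha⟩ ⟨b, hb⟩),
    fun h => ⟨⟨fun a b => Subtype.ext (h a a.2 b b.2)⟩⟩⟩

theorem SelfN.of_equiv {G' : Type*} [Group G'] (h : SelfN G) (e : G' ≃* G) : SelfN G' := by
  intro H hH
  have h1 := h (H.map e.toMonoidHom) fun hc => hH (isMulCommutative_iff'.2 fun a ha b hb =>
    e.injective (by
      rw [map_mul, map_mul]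
      exact isMulCommutative_iff'.1 hc _ (mem_map_of_mem _ ha) _ (mem_map_of_mem _ hb)))
  refine le_antisymm (fun g hg => ?_) le_normalizer
  have h2 : e g ∈ H.map e.toMonoidHom := h1 ▸ le_normalizer_map e.toMonoidHom ⟨g, hg, rfl⟩
  obtain ⟨x, hx, hx'⟩ := h2
  exact e.injective hx' ▸ hx

variable [Finite G]

/-- A finite group all of whose nontrivial subgroups are self-normalizing has prime order. -/
theorem prime_card_of_selfnormalizing [Nontrivial G]
    (h : ∀ H : Subgroup G, H ≠ ⊥ → normalizer (H : Set G) = H) : (Nat.card G).Prime := by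
  obtain ⟨r, hr, hd⟩ := Nat.exists_prime_and_dvd (Finite.one_lt_card (α := G)).ne'
  have := Fact.mk hr
  obtain ⟨z, hz⟩ := exists_prime_orderOf_dvd_card' r hd
  have hZ : Nat.card (zpowers z) = r := by rw [Nat.card_zpowers, hz]
  have hne : zpowers z ≠ ⊥ := fun e => hr.one_lt.ne' (by rw [← hZ, e, card_bot])
  have h1 := h _ hne
  have h2 : ¬ r ∣ (zpowers z).index := not_dvd_index_of_normalizer_le (H := zpowers z)
    (IsPGroup.of_card (hZ.trans (pow_one r).symm)) (by rw [relIndex_self]; exact hr.not_dvd_one)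
    fun g hg _ => h1 ▸ hg
  obtain ⟨N, hN, hc⟩ := exists_normal_complement_of_normalizer_le_centralizer (zpowers z)
    (by rw [hZ]; exact (Nat.Prime.coprime_iff_not_dvd hr).2 h2)
    (by rw [h1]; exact le_centralizer _)
  by_cases hb : N = ⊥
  · have := hc.card_mul_card
    rw [hb, card_bot, one_mul, hZ] at this
    exact this ▸ hr
  · have h3 := h N hb
    rw [normalizer_eq_top] at h3
    exact absurd (top_disjoint.1 (h3 ▸ hc.disjoint)) hne

theorem SelfN.prime_relIndex (h : SelfN G) {Q : Subgroup G} (hQ : Q ≤ centralizer (Q : Set G))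
    (hne : ¬ normalizer (Q : Set G) ≤ centralizer (Q : Set G)) :
    ((centralizer (Q : Set G)).relIndex (normalizer (Q : Set G))).Prime := by
  have hn : ((centralizer (Q : Set G)).subgroupOf (normalizer (Q : Set G))).Normal :=
    normal_subgroupOf_centralizer_normalizer _
  have : Nontrivial (normalizer (Q : Set G) ⧸
      (centralizer (Q : Set G)).subgroupOf (normalizer (Q : Set G))) :=
    QuotientGroup.nontrivial_iff.2 fun e => hne (subgroupOf_eq_top.1 e)
  refine prime_card_of_selfnormalizing fun H hH => le_antisymm (fun g hg => ?_) le_normalizer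
  obtain ⟨g, rfl⟩ := QuotientGroup.mk_surjective g
  obtain ⟨⟨z, hz⟩, hz1⟩ := ne_bot_iff_exists_ne_one.1 hH
  obtain ⟨z, rfl⟩ := QuotientGroup.mk_surjective z
  let X := H.comap (QuotientGroup.mk' ((centralizer (Q : Set G)).subgroupOf _))
  have h1 := h (X.map (Subgroup.subtype _)) fun hc => hz1 (Subtype.ext
    ((QuotientGroup.eq_one_iff z).2 fun q hq => isMulCommutative_iff'.1 hc q
      ⟨⟨q, le_normalizer hq⟩, by
        change QuotientGroup.mk _ ∈ H
        rw [(QuotientGroup.eq_one_iff _).2 (by exact hQ hq)]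
        exact one_mem H, rfl⟩ z ⟨z, hz, rfl⟩))
  have h2 : g ∈ normalizer (X : Set _) := le_normalizer_comap _ hg
  have h3 : (g : G) ∈ X.map (Subgroup.subtype _) := h1 ▸ le_normalizer_map _ ⟨g, h2, rfl⟩
  obtain ⟨x, hx, hx'⟩ := h3
  exact Subtype.ext hx' ▸ hx

omit [Finite G] in
theorem SelfN.isMulCommutative_centralizer (h : SelfN G) {Q : Subgroup G}
    (hne : ¬ normalizer (Q : Set G) ≤ centralizer (Q : Set G)) :
    IsMulCommutative (centralizer (Q : Set G)) := by
  by_contra hc
  exact hne (h _ hc ▸ normalizer_le_normalizer_centralizer Q)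

theorem SelfN.sylow_comm (h : SelfN G) {p : ℕ} [Fact p.Prime] (hp : ¬ HasNormalPComplement p G)
    (P : Sylow p G) : IsMulCommutative P := by
  let T : Set (Subgroup G) := {Q | IsPGroup p Q ∧ ∃ y ∈ normalizer (Q : Set G),
    (orderOf y).Coprime p ∧ y ∉ centralizer (Q : Set G)}
  have hT : T.Nonempty := by
    by_contra hT
    refine hp (frobenius_of_primePow P fun Q h1 _ q hq hqp g hg ⟨k, hk⟩ => ?_)
    by_contra hc
    exact hT ⟨Q, P.2.to_le h1, g, hg,
      hk ▸ ((Nat.coprime_primes hq Fact.out).2 hqp).pow_left k, hc⟩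
  obtain ⟨Q, ⟨hQ, y, hy, hyo, hyc⟩, hmax⟩ := Set.exists_max_image T (fun Q => Nat.card Q)
    (Set.toFinite _) hT
  have hQc : IsMulCommutative Q := by
    by_contra hc
    rw [h Q hc] at hy
    have h1 := hQ.orderOf_coprime hyo.symm ⟨y, hy⟩
    rw [Subgroup.orderOf_mk, Nat.coprime_self, orderOf_eq_one_iff] at h1
    exact hyc (h1 ▸ one_mem _)
  have hQC : Q ≤ centralizer (Q : Set G) := le_centralizer Q
  have hne : ¬ normalizer (Q : Set G) ≤ centralizer (Q : Set G) := fun e => hyc (e hy)
  have hr := h.prime_relIndex hQC hne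
  have hC := h.isMulCommutative_centralizer hne
  obtain ⟨S, hS1, hS2, hS3, hS4⟩ := exists_sylowIn_ge hQ hQC
  have hyS : y ∈ normalizer (S : Set G) := mem_normalizer_fintype fun a ha => by
    have h1 : y * a * y⁻¹ ∈ centralizer (Q : Set G) :=
      (mem_normalizer_iff.1 (normalizer_le_normalizer_centralizer Q hy) a).1 (hS2 ha)
    obtain ⟨c, hc, hc2⟩ := exists_conj_le_sylowIn hS3 hS4 (isPGroup_map_conj hS3 y)
      (map_conj_le_iff.2 fun b hb =>
        (mem_normalizer_iff.1 (normalizer_le_normalizer_centralizer Q hy) b).1 (hS2 hb))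
    have h2 := hc2 _ (mem_map_of_mem _ ha)
    change c * (y * a * y⁻¹) * c⁻¹ ∈ S at h2
    rwa [isMulCommutative_iff'.1 hC c hc _ h1, mul_inv_cancel_right] at h2
  have h1 : Q = S := eq_of_le_of_card_ge hS1
    (hmax S ⟨hS3, y, hyS, hyo, fun e => hyc (centralizer_le hS1 e)⟩)
  subst h1
  have h2 : ¬ p ∣ (centralizer (Q : Set G)).relIndex (normalizer (Q : Set G)) := fun hd => by
    have hn : ((centralizer (Q : Set G)).subgroupOf (normalizer (Q : Set G))).Normal :=
      normal_subgroupOf_centralizer_normalizer _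
    have h3 : (⟨y, hy⟩ : normalizer (Q : Set G)) ^ _ ∈ _ :=
      pow_index_mem ((centralizer (Q : Set G)).subgroupOf (normalizer (Q : Set G))) _
    rw [← relIndex, ← (Nat.prime_dvd_prime_iff_eq Fact.out hr).1 hd] at h3
    exact hyc (mem_of_pow_mem_of_coprime h3 hyo)
  have h3 : ¬ p ∣ Q.index := not_dvd_index_of_normalizer_le hQ (H := normalizer (Q : Set G)) (by
    rw [← relIndex_mul_relIndex Q _ _ hQC (centralizer_le_normalizer _),
      Nat.Prime.dvd_mul Fact.out]
    exact not_or.2 ⟨hS4, h2⟩) fun g hg _ => hg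
  obtain ⟨g, hg⟩ := exists_smul_eq G (hQ.toSylow h3) P
  subst hg
  refine isMulCommutative_iff'.2 ?_
  rintro _ ⟨a, ha, rfl⟩ _ ⟨b, hb, rfl⟩
  exact (show Commute a b from isMulCommutative_iff'.1 hQc a ha b hb).map (MulAut.conj g)

theorem SelfN.iac [IsSimpleGroup G] (h : SelfN G) (hna : ¬ IsMulCommutative G) : IAC G := by
  refine IAC.of_isMulCommutative fun t ht => ?_
  have he := even_card_of_involution ht
  have hp := not_hasNormalPComplement_of_simple hna he.two_dvd
  obtain ⟨S, hS⟩ := (isPGroup_zpowers (p := 2) (k := 1) ht).exists_le_sylow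
  have htS : t ∈ (S : Subgroup G) := hS (mem_zpowers t)
  have hSc := h.sylow_comm hp S
  have hne : ¬ normalizer ((S : Subgroup G) : Set G) ≤ centralizer ((S : Subgroup G) : Set G) :=
    fun e => hp ⟨S, _, inferInstance, MonoidHom.ker_transferSylow_isComplement' S e⟩
  have hr := h.prime_relIndex (le_centralizer _) hne
  have hSC : (S : Subgroup G) ≤ centralizer {t} := fun a ha =>
    mem_centralizer_singleton_iff.2 (isMulCommutative_iff'.1 hSc a ha t htS)
  have h1 : normalizer ((S : Subgroup G) : Set G) ⊓ centralizer {t} ≤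
      centralizer ((S : Subgroup G) : Set G) := by
    have h2 : centralizer ((S : Subgroup G) : Set G) ≤
        normalizer ((S : Subgroup G) : Set G) ⊓ centralizer {t} :=
      le_inf (centralizer_le_normalizer _) (centralizer_le (Set.singleton_subset_iff.2 htS))
    have h3 := relIndex_mul_relIndex _ _ _ h2 inf_le_left
    rcases (Nat.prime_mul_iff.1 (h3 ▸ hr)) with ⟨-, h4⟩ | ⟨-, h4⟩
    · exfalso
      have h5 := (relIndex_eq_one.1 h4).trans inf_le_right
      have h6 := inf_commutator_inf_centralizer_eq_bot hSc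
        (coprime_card_sylow_relIndex S le_normalizer)
      have h7 : t ∈ commutator G ⊓ (S : Subgroup G) := mem_inf.2 ⟨by
        rw [(Subgroup.Normal.eq_bot_or_eq_top inferInstance).resolve_left fun e =>
          hna ((commutator_eq_bot_iff G).1 e)]
        exact mem_top t, htS⟩
      rw [commutator_inf_sylow_eq_of_abelian S hSc] at h7
      exact ne_one_of_two ht (mem_bot.1 (h6 ▸ mem_inf.2 ⟨mem_inf.2 ⟨htS,
        commutator_mono le_normalizer le_rfl h7⟩, fun g hg =>
          mem_centralizer_singleton_iff.1 (h5 hg)⟩))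
    · exact relIndex_eq_one.1 h4
  obtain ⟨N, hN, hc⟩ := exists_normal_complement_of_normalizer_le_centralizer
    ((S : Subgroup G).subgroupOf (centralizer {t}))
    (by
      rw [Nat.card_congr (subgroupOfEquivOfLe hSC).toEquiv]
      exact coprime_card_sylow_relIndex S hSC)
    (by
      rw [← subgroupOf_normalizer_eq hSC]
      exact fun g hg a ha => Subtype.ext (h1 ⟨hg, g.2⟩ a ha))
  set O := N.map (centralizer {t}).subtype with hO
  have hOC : O ≤ centralizer {t} := map_subtype_le _
  have hOn : centralizer {t} ≤ normalizer (O : Set G) := by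
    have := le_normalizer_map (H := N) (centralizer ({t} : Set G)).subtype
    rwa [normalizer_eq_top, ← MonoidHom.range_eq_map, range_subtype] at this
  have hOS : ∀ a ∈ O, a ∈ (S : Subgroup G) → a = 1 := by
    rintro _ ⟨a, ha, rfl⟩ haS
    exact congrArg Subtype.val (disjoint_def.1 hc.disjoint ha haS)
  have hdec : ∀ c ∈ centralizer ({t} : Set G), ∃ o ∈ O, ∃ s ∈ (S : Subgroup G), c = o * s := by
    intro c hcc
    obtain ⟨⟨o, s⟩, e⟩ := hc.2 ⟨c, hcc⟩
    exact ⟨_, ⟨o, o.2, rfl⟩, _, s.2, (congrArg Subtype.val e).symm⟩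
  have hOc : IsMulCommutative O := by
    by_contra hc
    exact ne_one_of_two ht (hOS t (h O hc ▸ hOn (hSC htS)) htS)
  by_cases h2 : ∀ s ∈ (S : Subgroup G), ∀ o ∈ O, o * s = s * o
  · refine isMulCommutative_iff'.2 fun a ha b hb => ?_
    obtain ⟨o, ho, s, hs, rfl⟩ := hdec a ha
    obtain ⟨o', ho', s', hs', rfl⟩ := hdec b hb
    exact ((Commute.mul_right (isMulCommutative_iff'.1 hOc o ho o' ho') (h2 s' hs' o ho)).mul_left
      (Commute.mul_right (h2 s hs o' ho').symm (isMulCommutative_iff'.1 hSc s hs s' hs'))).eq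
  exfalso
  push Not at h2
  obtain ⟨s, hs, o, ho, hos⟩ := h2
  have h3 := h (O ⊔ zpowers s) fun hc => hos (isMulCommutative_iff'.1 hc o (mem_sup_left ho) s
    (mem_sup_right (mem_zpowers s)))
  refine sylow_two_not_isCyclic_of_simple hna he S ⟨⟨s, hs⟩, fun u => ?_⟩
  have h4 : (u : G) ∈ O ⊔ zpowers s := h3 ▸ normalizer_inf_normalizer_le_normalizer_sup _ _
    ⟨hOn (hSC u.2), centralizer_le_normalizer _ (by
      rintro _ ⟨k, rfl⟩
      exact (Commute.zpow_left (isMulCommutative_iff'.1 hSc s hs u u.2) k))⟩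
  have h5 : (u : G) ∈ ((O ⊔ zpowers s : Subgroup G) : Set G) := h4
  rw [coe_mul_of_right_le_normalizer_left _ _ (zpowers_le.2 (hOn (hSC hs)))] at h5
  obtain ⟨a, ha, _, ⟨k, rfl⟩, e⟩ := h5
  have h6 : a = 1 := hOS a ha (by
    rw [eq_mul_inv_of_mul_eq e]
    exact mul_mem u.2 (inv_mem (zpow_mem hs k)))
  exact ⟨k, Subtype.ext (by simpa [h6] using e)⟩

section PSL

variable {F : Type*} [Field F] [Finite F]

theorem SelfN.prime_of_psl (h2 : (2 : F) = 0) (h4 : 4 ≤ Nat.card F) (h : SelfN PSL(2, F)) :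
    (Nat.card F - 1).Prime := by
  obtain ⟨u, hu, hu1⟩ := exists_ne_one_mem_uniS (inf : P1 F)
  have hC : centralizer (uniS (inf : P1 F) : Set PSL(2, F)) = uniS inf :=
    le_antisymm (fun g hg => by
      rw [← torS_eq_uniS hu hu1, ← centralizer_eq_torS_of_char_two h2]
      exact mem_centralizer_singleton_iff.2 (hg u hu).symm) fun a ha b hb => uniS_comm hb ha
  have h1 : (uniS (inf : P1 F)).relIndex (stabilizer PSL(2, F) (inf : P1 F)) = Nat.card F - 1 := by
    have h3 := card_stabilizerS_mul (inf : P1 F)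
    rw [gcd_of_two_eq_zero h2, mul_one,
      ← ((uniS (inf : P1 F)).subgroupOf (stabilizer PSL(2, F) (inf : P1 F))).card_mul_index,
      Nat.card_congr (subgroupOfEquivOfLe (uniS_le_stabilizer _)).toEquiv, card_uniS] at h3
    exact Nat.eq_of_mul_eq_mul_left Nat.card_pos h3
  have := h.prime_relIndex (Q := uniS inf) hC.ge (by
    rw [hC, normalizer_uniS, ← relIndex_eq_one, h1]
    omega)
  rwa [hC, normalizer_uniS, h1] at this

theorem odd_orderOf_of_tau (h2 : (2 : F) = 0) {g a : PSL(2, F)} (ht : tau (emb g) ≠ 4)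
    (ha : a ∈ torS g) : Odd (orderOf a) := by
  by_contra he
  have h1 := orderOf_pow_half (orderOf_pos a).ne' (Nat.not_odd_iff_even.1 he)
  exact tauS_ne_four_of_mem ht (pow_mem ha _) (ne_one_of_two h1) (tauS_eq_four_of_orderOf_two h2 h1)

theorem normalizer_eq_of_le_ntorS (h2 : (2 : F) = 0) {g : PSL(2, F)} (ht : tau (emb g) ≠ 4)
    {H : Subgroup PSL(2, F)} (hg : g ∈ H) (hH : H ≤ ntorS g) (hna : ¬ IsMulCommutative H) :
    normalizer (H : Set PSL(2, F)) = H := by
  have hg1 := ne_one_of_tauS ht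
  obtain ⟨s, hs, hsT⟩ : ∃ s ∈ H, s ∉ torS g := by
    by_contra hc
    push Not at hc
    exact hna (isMulCommutative_iff'.2 fun a ha b hb => torS_comm hg1 (hc a ha) (hc b hb))
  have h1 : ∀ n ∈ normalizer (H : Set PSL(2, F)), n ∈ torS g → n ∈ H := fun n hn hnT => by
    have h3 : n * n ∈ H := by
      have := mul_mem ((mem_normalizer_iff.1 hn s).1 hs) (inv_mem hs)
      rwa [mul_assoc n, mul_assoc n, conj_eq_inv_of_mem_ntorS ht (hH hs) hsT (inv_mem hnT),
        inv_inv] at this
    rw [← pow_half_succ_sq (odd_orderOf_of_tau h2 ht hnT), ← (Commute.refl n).mul_pow]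
    exact pow_mem h3 _
  refine le_antisymm (fun n hn => ?_) le_normalizer
  have h3 : n ∈ ntorS g := by
    rw [mem_ntorS_iff hg1]
    by_contra hc
    have h4 := orderOf_of_mem_ntorS ht (hH ((mem_normalizer_iff.1 hn g).1 hg)) hc
    have h5 := odd_orderOf_of_tau h2 ht (self_mem_torS g)
    rw [orderOf_conj] at h4
    rw [h4] at h5
    exact absurd h5 (by decide)
  by_cases hnT : n ∈ torS g
  · exact h1 n hn hnT
  · exact (H.mul_mem_cancel_right hs).1 (h1 _ (mul_mem hn (le_normalizer hs))
      (mul_mem_torS_of_not_mem ht h3 hnT (hH hs) hsT))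

theorem selfN_psl (h2 : (2 : F) = 0) (hr : (Nat.card F - 1).Prime) : SelfN PSL(2, F) := by
  intro H hna
  have : CharP F 2 := CharTwo.of_one_ne_zero_of_two_eq_zero one_ne_zero h2
  have hinv : Even (Nat.card H) → ¬ ∀ h ∈ H, h ≠ 1 → tau (emb h) ≠ 4 := fun he hc => by
    obtain ⟨t, ht, ht2⟩ := exists_involution_mem_of_even he
    exact hc t ht (ne_one_of_two ht2) (tauS_eq_four_of_orderOf_two h2 ht2)
  rcases dickson_psl 2 H with ⟨x, h⟩ | ⟨g, hg, ht, h⟩ | ⟨h, ⟨⟨e⟩⟩ | ⟨⟨e⟩⟩ | ⟨⟨e⟩⟩⟩ | ⟨h, -⟩ |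
    ⟨k, c, h⟩
  · have h1 : (uniS x).relIndex (stabilizer PSL(2, F) x) = Nat.card F - 1 := by
      have h3 := card_stabilizerS_mul x
      rw [gcd_of_two_eq_zero h2, mul_one,
        ← ((uniS x).subgroupOf (stabilizer PSL(2, F) x)).card_mul_index,
        Nat.card_congr (subgroupOfEquivOfLe (uniS_le_stabilizer _)).toEquiv, card_uniS] at h3
      exact Nat.eq_of_mul_eq_mul_left Nat.card_pos h3
    have hn : ((uniS x).subgroupOf (stabilizer PSL(2, F) x)).Normal :=
      (normal_subgroupOf_iff_le_normalizer (uniS_le_stabilizer x)).2 (normalizer_uniS x).ge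
    have h3 : (uniS x).relIndex H = Nat.card F - 1 := by
      have h4 : (uniS x).relIndex H ∣ Nat.card F - 1 := by
        rw [← h1, ← relIndex_subgroupOf h]
        exact relIndex_dvd_index_of_normal _ _
      refine (hr.eq_one_or_self_of_dvd _ h4).resolve_left fun e => hna ?_
      exact isMulCommutative_iff'.2 fun a ha b hb =>
        uniS_comm (relIndex_eq_one.1 e ha) (relIndex_eq_one.1 e hb)
    have h4 : Nat.card (uniS x ⊓ H : Subgroup PSL(2, F)) * (Nat.card F - 1) = Nat.card H := by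
      rw [← h3, ← inf_relIndex_right, ← Nat.card_congr (subgroupOfEquivOfLe inf_le_right).toEquiv]
      exact card_mul_index _
    have h5 : uniS x ⊓ H ≠ ⊥ := fun e => by
      rw [e, card_bot, one_mul] at h4
      have := Fact.mk hr
      have := isCyclic_of_prime_card h4.symm
      exact hna inferInstance
    have h6 := Ch.TI.relIndex_dvd_card_sub_one (uniS x ⊓ H) H inf_le_right
      (fun g hg => inf_normalizer_le_normalizer_inf ⟨(normalizer_uniS x).ge (h hg), le_normalizer hg⟩)
      fun k hk hk1 g hg e => ⟨by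
        rw [← torS_eq_uniS hk.1 hk1, ← centralizer_eq_torS_of_char_two h2]
        exact mem_centralizer_singleton_iff.2 e, hg⟩
    rw [← relIndex, inf_relIndex_right, h3] at h6
    have h7 := (one_lt_card_iff_ne_bot _).2 h5
    have h8 := Nat.le_of_dvd (by omega) h6
    have h9 : H = stabilizer PSL(2, F) x := eq_of_le_of_card_ge h (by
      have h3 := card_stabilizerS_mul x
      rw [gcd_of_two_eq_zero h2, mul_one] at h3
      rw [h3, ← h4]
      exact Nat.mul_le_mul_right _ (by have := hr.two_le; omega))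
    refine le_antisymm (fun n hn => ?_) le_normalizer
    obtain ⟨u, hu, hu1⟩ := exists_ne_one_mem_uniS x
    have h10 : n * u * n⁻¹ ∈ H := (mem_normalizer_iff.1 hn u).1 (h9 ▸ uniS_le_stabilizer x hu)
    rw [h9] at h10 ⊢
    refine eq_of_mem_uniS (g := n * u * n⁻¹) (fun e => hu1 (by simpa using e)) ?_ h10
    rw [uniS_smul, mem_cj]
    simpa [mul_assoc] using hu
  · exact normalizer_eq_of_le_ntorS h2 ht hg h hna
  · exact absurd h (hinv (by rw [card_of_A4 e]; decide))
  · exact absurd h (hinv (by rw [card_of_S4 e]; decide))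
  · exact absurd h (hinv (by rw [card_of_A5 e]; decide))
  · exact absurd h (by decide)
  · rw [subPGL_eq_subPSL h2, or_self] at h
    obtain ⟨m, -, hm⟩ := card_subfield_pow k
    have h1 : Nat.card k - 1 ∣ Nat.card F - 1 := hm ▸ Nat.sub_one_dvd_pow_sub_one _ _
    have h3 : 1 < Nat.card k := Finite.one_lt_card
    rcases hr.eq_one_or_self_of_dvd _ h1 with e | e
    · have h4 : Nat.card H = 6 := by
        have h5 := card_PSL_mul (F := k)
        rw [← card_subPSL, ← card_cj c, ← h, card_map_emb, show Nat.card k = 2 by omega] at h5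
        simpa using h5
      have := Fact.mk Nat.prime_three
      obtain ⟨⟨g, hg⟩, hg3⟩ := exists_prime_orderOf_dvd_card' (G := H) 3 (by rw [h4]; decide)
      have hi : (zpowers (⟨g, hg⟩ : H)).index = 2 := by
        have := (zpowers (⟨g, hg⟩ : H)).card_mul_index
        rw [Nat.card_zpowers, hg3, h4] at this
        omega
      have hn := normal_of_index_eq_two hi
      rw [Subgroup.orderOf_mk] at hg3
      have ht : tau (emb g) ≠ 4 := fun e => by
        obtain ⟨x, hx⟩ := exists_mem_uniS e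
        have := orderOf_of_mem_uniS 2 hx (by rintro rfl; simp at hg3)
        omega
      refine normalizer_eq_of_le_ntorS h2 ht hg (fun a ha => ?_) hna
      obtain ⟨j, hj⟩ := hn.conj_mem _ (mem_zpowers _) ⟨a, ha⟩
      rw [mem_ntorS_iff (ne_one_of_tauS ht), ← show g ^ j = a * g * a⁻¹ from congrArg Subtype.val hj]
      exact zpow_mem (self_mem_torS g) j
    · have h4 : k = ⊤ := subfield_eq_top_of_card (by have := hr.two_le; omega)
      rw [h4, subPSL_top, cj_of_normal] at h
      rw [eq_top_of_psl_le h.ge, normalizer_eq_top]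

end PSL

end Cfsg.Agent.CIT.CA
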